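import Cfsg.Agent.H273.EPU.Soc
import Cfsg.Agent.H936.DSBase
import Cfsg.Agent.H419.EP.Soc

/-!
# S3499: `A ∩ A^x ∩ soc(A) ≠ 1` (helper957)

`inf_ne_bot`: `EPT A Γ`, `N = soc(A)` simple nonabelian, the subgroups of `A` that meet `N` trivially are solvable:
`A ∩ A^x ∩ N ≠ 1` for all `x ∉ A`. `solv_of_DS`: this holds if `Out N` is solvable (`H936.DS n N`).
`ncard_le_locK`: there are at most `|LocK N|` groups `A ∩ A^x`.
-/

set_option autoImplicit false

namespace Cfsg.Agent.H957.EP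

open Subgroup Cfsg.Agent.H284 Cfsg.Agent.H839.EP
open scoped commutatorElement Pointwise

section coprime

variable {Q : Type*} [Group Q] {N E : Subgroup Q}

/-- `E` acts on `N` by conjugation -/
@[reducible] def actN (hEN : ∀ e ∈ E, ∀ n ∈ N, e * n * e⁻¹ ∈ N) : MulDistribMulAction E N where
  smul e n := ⟨e.1 * n.1 * e.1⁻¹, hEN e.1 e.2 n.1 n.2⟩
  one_smul n := Subtype.ext (by show (1 : Q) * n.1 * (1 : Q)⁻¹ = n.1; group)
  mul_smul e f n := Subtype.ext (by
    show (e.1 * f.1) * n.1 * (e.1 * f.1)⁻¹ = e.1 * (f.1 * n.1 * f.1⁻¹) * e.1⁻¹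
    group)
  smul_one e := Subtype.ext (by show e.1 * (1 : Q) * e.1⁻¹ = 1; group)
  smul_mul e a b := Subtype.ext (by
    show e.1 * (a.1 * b.1) * e.1⁻¹ = (e.1 * a.1 * e.1⁻¹) * (e.1 * b.1 * e.1⁻¹)
    group)

variable [Finite Q]

/-- an `s`-group `E` with `C_N(E) = 1`: `s ∤ |N|` -/
theorem not_dvd_of_cent (hEN : ∀ e ∈ E, ∀ n ∈ N, e * n * e⁻¹ ∈ N) {s : ℕ} (hs : s.Prime) (hE : IsPGroup s E)
    (hC : ∀ n ∈ N, (∀ e ∈ E, e * n * e⁻¹ = n) → n = 1) : ¬ s ∣ Nat.card N := by
  have _hf : Fact s.Prime := ⟨hs⟩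
  let _act := actN hEN
  intro hd
  have h1 : (1 : N) ∈ MulAction.fixedPoints E N := fun e => smul_one e
  obtain ⟨b, hb, hb1⟩ := hE.exists_fixed_point_of_prime_dvd_card_of_fixed_point N hd h1
  apply hb1
  symm
  apply Subtype.ext
  apply hC b.1 b.2
  intro e he
  exact congrArg Subtype.val (hb ⟨e, he⟩)

/-- an `s`-group `E` with `C_N(E) = 1` leaves exactly one Sylow `r`-subgroup of `N` invariant -/
theorem exists_inv_sylow (hEN : ∀ e ∈ E, ∀ n ∈ N, e * n * e⁻¹ ∈ N) {s : ℕ} (hs : s.Prime) (hE : IsPGroup s E)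
    (hC : ∀ n ∈ N, (∀ e ∈ E, e * n * e⁻¹ = n) → n = 1) (r : ℕ) [Fact r.Prime] :
    ∃ P : Sylow r N, (∀ e ∈ E, ∀ k ∈ (P : Subgroup N).map N.subtype, e * k * e⁻¹ ∈ (P : Subgroup N).map N.subtype) ∧
      ∀ P' : Sylow r N, (∀ e ∈ E, ∀ k ∈ (P' : Subgroup N).map N.subtype,
        e * k * e⁻¹ ∈ (P' : Subgroup N).map N.subtype) → P' = P := by
  have _hf : Fact s.Prime := ⟨hs⟩
  have hnd := not_dvd_of_cent hEN hs hE hC
  let _act := actN hEN
  -- fixed Sylow subgroups in terms of elements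
  have hfix : ∀ P : Sylow r N, P ∈ MulAction.fixedPoints E (Sylow r N) ↔
      ∀ e ∈ E, ∀ k ∈ (P : Subgroup N).map N.subtype, e * k * e⁻¹ ∈ (P : Subgroup N).map N.subtype := by
    intro P
    constructor
    · intro h e he
      rintro _ ⟨k, hk, rfl⟩
      have h1 := h ⟨e, he⟩
      have h2 : (⟨e, he⟩ : E) • k ∈ ((⟨e, he⟩ : E) • P : Sylow r N) := by
        exact Subgroup.smul_mem_pointwise_smul k (⟨e, he⟩ : E) (P : Subgroup N) hk
      rw [h1] at h2
      exact ⟨_, h2, rfl⟩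
    · intro h e
      apply Sylow.ext
      have hle : ∀ f : E, f • (P : Subgroup N) ≤ (P : Subgroup N) := by
        intro f y hy
        obtain ⟨k, hk, rfl⟩ := Subgroup.mem_smul_pointwise_iff_exists _ _ _ |>.1 hy
        obtain ⟨z, hz, hz'⟩ := h f.1 f.2 k.1 ⟨k, hk, rfl⟩
        have : z = f • k := Subtype.ext hz'
        rw [← this]
        exact hz
      show e • (P : Subgroup N) = (P : Subgroup N)
      refine le_antisymm (hle e) ?_
      have h3 := hle e⁻¹
      rw [← Subgroup.pointwise_smul_le_pointwise_smul_iff (a := e), smul_inv_smul] at h3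
      exact h3
  obtain ⟨P, hP⟩ : (MulAction.fixedPoints E (Sylow r N)).Nonempty := by
    refine hE.nonempty_fixed_point_of_prime_not_dvd_card (Sylow r N) ?_
    intro hd
    exact hnd (hd.trans ((default : Sylow r N).card_dvd_index.trans (Subgroup.index_dvd_card _)))
  refine ⟨P, (hfix P).1 hP, ?_⟩
  intro P' hP'
  replace hP' := (hfix P').2 hP'
  have hcompat : ∀ (e : E) (n : N) (R : Sylow r N), e • (n • R) = (e • n) • (e • R) := by
    intro e n R
    apply Sylow.ext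
    show e • (MulAut.conj n • (R : Subgroup N)) = MulAut.conj (e • n) • (e • (R : Subgroup N))
    ext y
    simp only [Subgroup.mem_smul_pointwise_iff_exists]
    constructor
    · rintro ⟨_, ⟨k, hk, rfl⟩, rfl⟩
      refine ⟨e • k, ⟨k, hk, rfl⟩, ?_⟩
      show MulAut.conj (e • n) (e • k) = e • (MulAut.conj n k)
      rw [MulAut.conj_apply, MulAut.conj_apply, smul_mul', smul_mul', smul_inv']
    · rintro ⟨_, ⟨k, hk, rfl⟩, rfl⟩
      refine ⟨MulAut.conj n k, ⟨k, hk, rfl⟩, ?_⟩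
      show e • (MulAut.conj n k) = MulAut.conj (e • n) (e • k)
      rw [MulAut.conj_apply, MulAut.conj_apply, smul_mul', smul_mul', smul_inv']
  let X := {n : N // n • P = P'}
  let _aX : MulAction E X :=
    { smul := fun e n => ⟨e • n.1, by
        have h1 := hcompat e n.1 P
        rw [hP e, n.2, hP' e] at h1
        exact h1.symm⟩
      one_smul := fun n => Subtype.ext (one_smul E n.1)
      mul_smul := fun e f n => Subtype.ext (mul_smul e f n.1) }
  obtain ⟨n0, hn0⟩ := MulAction.exists_smul_eq N P P'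
  have hcX : Nat.card X = Nat.card (MulAction.stabilizer N P) := by
    refine Nat.card_congr
      { toFun := fun n => ⟨n0⁻¹ * n.1, by
          rw [MulAction.mem_stabilizer_iff, mul_smul, n.2, ← hn0, inv_smul_smul]⟩
        invFun := fun n => ⟨n0 * n.1, by
          have := MulAction.mem_stabilizer_iff.1 n.2
          rw [mul_smul, this, hn0]⟩
        left_inv := fun n => Subtype.ext (by simp)
        right_inv := fun n => Subtype.ext (by simp) }
  obtain ⟨n, hn⟩ : (MulAction.fixedPoints E X).Nonempty := by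
    refine hE.nonempty_fixed_point_of_prime_not_dvd_card X ?_
    rw [hcX]
    exact fun hd => hnd (hd.trans (Subgroup.card_subgroup_dvd_card _))
  have h1 : n.1 = 1 := by
    apply Subtype.ext
    apply hC n.1.1 n.1.2
    intro e he
    have h2 := congrArg Subtype.val (hn ⟨e, he⟩)
    exact congrArg Subtype.val h2
  have h2 := n.2
  rw [h1, one_smul] at h2
  exact h2.symm

end coprime

section ept

variable {Q : Type*} [Group Q] [Finite Q] {A N : Subgroup Q} {Γ : Subgroup (MulAut Q)}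

/-- an abelian characteristically simple group is elementary abelian -/
theorem elab_of_char {X : Type*} [Group X] [Finite X] [Nontrivial X]
    (hc : ∀ Y : Subgroup X, Y.Characteristic → Y = ⊥ ∨ Y = ⊤) (hcomm : ∀ a b : X, a * b = b * a) :
    ∃ s : ℕ, s.Prime ∧ s ∣ Nat.card X ∧ Cfsg.Agent.H59.EP.ElAb s (⊤ : Subgroup X) := by
  obtain ⟨s, hs, hsd⟩ := Nat.exists_prime_and_dvd (n := Nat.card X) (by
    have := Finite.one_lt_card (α := X)
    omega)
  have _hf : Fact s.Prime := ⟨hs⟩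
  obtain ⟨x, hx⟩ := exists_prime_orderOf_dvd_card' s hsd
  let Y : Subgroup X :=
    { carrier := {y | y ^ s = 1}
      one_mem' := one_pow s
      mul_mem' := fun {a b} ha hb => by
        show (a * b) ^ s = 1
        rw [(show Commute a b from hcomm a b).mul_pow, show a ^ s = 1 from ha, show b ^ s = 1 from hb, one_mul]
      inv_mem' := fun {a} ha => by
        show a⁻¹ ^ s = 1
        rw [inv_pow, show a ^ s = 1 from ha, inv_one] }
  have hY : Y.Characteristic := by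
    rw [characteristic_iff_map_le]
    rintro φ _ ⟨y, hy, rfl⟩
    show (φ y) ^ s = 1
    rw [← map_pow, show y ^ s = 1 from hy, map_one]
  refine ⟨s, hs, hsd, fun a _ b _ => hcomm a b, ?_⟩
  rcases hc Y hY with h | h
  · exfalso
    have h1 : x ∈ Y := by
      show x ^ s = 1
      rw [← hx, pow_orderOf_eq_one]
    rw [h, mem_bot] at h1
    rw [h1, orderOf_one] at hx
    exact hs.one_lt.ne hx
  · intro a _
    have h1 : a ∈ Y := by rw [h]; exact mem_top _
    exact h1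

/-- a solvable group `≠ 1` has a characteristic `s`-subgroup `≠ 1` -/
theorem exists_char_pgroup {X : Type*} [Group X] [Finite X] [Nontrivial X] (h : Group.IsSolvable X) :
    ∃ s : ℕ, s.Prime ∧ ∃ E : Subgroup X, E.Characteristic ∧ E ≠ ⊥ ∧ IsPGroup s E ∧ Cfsg.Agent.H59.EP.ElAb s E := by
  obtain ⟨E, hE, hE0, hmin⟩ := Cfsg.Agent.H59.EP.exists_min_char (B := X)
  have hnt : Nontrivial E := (Subgroup.nontrivial_iff_ne_bot E).2 hE0
  have hch : ∀ Y : Subgroup E, Y.Characteristic → Y = ⊥ ∨ Y = ⊤ := by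
    intro Y hY
    by_cases hY0 : Y = ⊥
    · exact Or.inl hY0
    right
    have h1 : (Y.map E.subtype).Characteristic := Cfsg.Agent.H59.EP.char_trans
    have h2 : Y.map E.subtype ≠ ⊥ := by
      intro e
      rw [Subgroup.map_eq_bot_iff_of_injective _ E.subtype_injective] at e
      exact hY0 e
    have h3 := hmin _ h1 (Subgroup.map_subtype_le Y) h2
    rw [eq_top_iff]
    intro y _
    have h4 : (y : X) ∈ Y.map E.subtype := by rw [h3]; exact y.2
    obtain ⟨z, hz, e⟩ := h4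
    rwa [Subtype.ext e] at hz
  have hsol : Group.IsSolvable E := Group.isSolvable_of_isSolvable_injective (f := E.subtype) E.subtype_injective
  have hcomm : ∀ a b : E, a * b = b * a := by
    have h1 : commutator E < ⊤ := Group.IsSolvable.commutator_lt_top_of_nontrivial E
    rcases hch (commutator E) inferInstance with h2 | h2
    · intro a b
      have h3 : ⁅a, b⁆ ∈ commutator E := commutator_mem_commutator (mem_top _) (mem_top _)
      rw [h2, mem_bot, commutatorElement_eq_one_iff_mul_comm] at h3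
      exact h3
    · exact absurd h2 h1.ne
  obtain ⟨s, hs, _, hel⟩ := elab_of_char hch hcomm
  refine ⟨s, hs, E, hE, hE0, ?_, ⟨fun a ha b hb => congrArg Subtype.val (hcomm ⟨a, ha⟩ ⟨b, hb⟩), ?_⟩⟩
  · intro x
    exact ⟨1, by rw [pow_one]; exact hel.exp x (mem_top _)⟩
  · intro a ha
    exact congrArg Subtype.val (hel.exp ⟨a, ha⟩ (mem_top _))

/-- **`A ∩ A^x ∩ N ≠ 1`** -/
theorem inf_ne_bot (h : EPT A Γ) (hS : Soc A N) (hs : IsSimpleGroup N)
    (hnc : ¬ ∀ a ∈ N, ∀ b ∈ N, a * b = b * a)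
    (hsol : ∀ M : Subgroup Q, M ≤ A → M ⊓ N = ⊥ → Group.IsSolvable M) {x : Q} (hx : x ∉ A) :
    A ⊓ cj x A ⊓ N ≠ ⊥ := by
  intro h0
  have hinv := hS.inv h hs
  have hne := h.M0 x hx
  have hnt : Nontrivial (A ⊓ cj x A : Subgroup Q) := (Subgroup.nontrivial_iff_ne_bot _).2 hne
  obtain ⟨s, hsp, E0, hE0c, hE0n, hE0p, _⟩ := exists_char_pgroup (hsol (A ⊓ cj x A) inf_le_left h0)
  set E : Subgroup Q := E0.map (A ⊓ cj x A : Subgroup Q).subtype with hE
  have hEle : E ≤ A ⊓ cj x A := Subgroup.map_subtype_le E0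
  have hEne : E ≠ ⊥ := by
    intro e
    rw [hE, Subgroup.map_eq_bot_iff_of_injective _ (Subgroup.subtype_injective _)] at e
    exact hE0n e
  have hEp : IsPGroup s E := hE0p.map _
  -- `E` is invariant under the stabiliser of the point `xA`
  have hEinv : ∀ σ ∈ Γ, x⁻¹ * σ x ∈ A → ∀ k ∈ E, σ k ∈ E := by
    intro σ hσ hσx
    rintro _ ⟨y, hy, rfl⟩
    let f : (A ⊓ cj x A : Subgroup Q) →* (A ⊓ cj x A : Subgroup Q) :=
      { toFun := fun y => ⟨σ y.1, h.stab_M0 hσ hσx y.2⟩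
        map_one' := Subtype.ext (map_one σ)
        map_mul' := fun a b => Subtype.ext (map_mul σ _ _) }
    have hf : Function.Injective f := by
      intro a b e
      exact Subtype.ext (σ.injective (congrArg Subtype.val e))
    let τ : MulAut (A ⊓ cj x A : Subgroup Q) := MulEquiv.ofBijective f (Finite.injective_iff_bijective.1 hf)
    have hτ : E0.map τ.toMonoidHom = E0 := Subgroup.characteristic_iff_map_eq.1 hE0c τ
    have h1 : τ y ∈ E0 := by
      rw [← hτ]
      exact ⟨y, hy, rfl⟩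
    exact ⟨_, h1, rfl⟩
  have hEN : ∀ e ∈ E, ∀ n ∈ N, e * n * e⁻¹ ∈ N := fun e he n hn => hS.nor e (mem_inf.1 (hEle he)).1 n hn
  have hC : ∀ n ∈ N, (∀ e ∈ E, e * n * e⁻¹ = n) → n = 1 := by
    intro n hn hcn
    have h1 : n ∈ A ⊓ cj x A := by
      refine Cfsg.Agent.H273.EPU.mem_of_norm h hx hEle hEinv hEne (hS.le hn) ?_
      intro k hk
      have h2 := hcn k hk
      have h3 : n * k * n⁻¹ = k := by
        have h4 : k * n = n * k := by
          rw [mul_inv_eq_iff_eq_mul] at h2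
          exact h2
        rw [← h4, mul_assoc, mul_inv_cancel, mul_one]
      rw [h3]
      exact hk
    have h2 : n ∈ A ⊓ cj x A ⊓ N := ⟨h1, hn⟩
    rw [h0, mem_bot] at h2
    exact h2
  have hN0 : N ≠ ⊥ := by
    intro e
    apply hnc
    intro a ha b hb
    rw [e, mem_bot] at ha hb
    rw [ha, hb]
  have hNc : Nat.card N ≠ 1 := by
    intro e
    exact hN0 (Subgroup.card_eq_one.1 e)
  obtain ⟨r, hr, hrd⟩ := Nat.exists_prime_and_dvd hNc
  have hrf : Fact r.Prime := ⟨hr⟩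
  obtain ⟨P, hPE, hPu⟩ := exists_inv_sylow hEN hsp hEp hC r
  set S : Subgroup Q := (P : Subgroup N).map N.subtype with hSdef
  have hSN : S ≤ N := Subgroup.map_subtype_le _
  have hS0 : S ≠ ⊥ := by
    intro e
    rw [hSdef, Subgroup.map_eq_bot_iff_of_injective _ N.subtype_injective] at e
    exact P.ne_bot_of_dvd_card hrd e
  -- the stabiliser of `S` in `Γ`
  let Λ : Subgroup (MulAut Q) :=
    { carrier := {σ | σ ∈ Γ ∧ ∀ k, σ k ∈ S ↔ k ∈ S}
      one_mem' := ⟨Γ.one_mem, fun k => Iff.rfl⟩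
      mul_mem' := fun {a b} ha hb => ⟨Γ.mul_mem ha.1 hb.1, fun k => by
        rw [MulAut.mul_apply, ha.2, hb.2]⟩
      inv_mem' := fun {a} ha => ⟨Γ.inv_mem ha.1, fun k => by
        rw [← ha.2 (a⁻¹ k), MulAut.apply_inv_self]⟩ }
  have hmemΛ : ∀ σ ∈ Γ, (∀ k ∈ S, σ k ∈ S) → σ ∈ Λ := by
    intro σ hσ hk
    refine ⟨hσ, fun k => ⟨fun hk' => ?_, hk k⟩⟩
    let g : S → S := fun y => ⟨σ y.1, hk y.1 y.2⟩
    have hg : Function.Injective g := fun a b e => Subtype.ext (σ.injective (congrArg Subtype.val e))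
    obtain ⟨y, hy⟩ := (Finite.injective_iff_surjective.1 hg) ⟨σ k, hk'⟩
    have h1 : σ y.1 = σ k := congrArg Subtype.val hy
    rw [← σ.injective h1]
    exact y.2
  -- the stabiliser of the point leaves `S` invariant
  have hst : ∀ σ ∈ Γ, x⁻¹ * σ x ∈ A → σ ∈ Λ := by
    intro σ hσ hσx
    refine hmemΛ σ hσ ?_
    -- the automorphism of `N`
    let f : N →* N :=
      { toFun := fun y => ⟨σ y.1, hinv σ hσ y.1 y.2⟩
        map_one' := Subtype.ext (map_one σ)
        map_mul' := fun a b => Subtype.ext (map_mul σ _ _) }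
    have hf : Function.Injective f := by
      intro a b e
      exact Subtype.ext (σ.injective (congrArg Subtype.val e))
    let τ : MulAut N := MulEquiv.ofBijective f (Finite.injective_iff_bijective.1 hf)
    have hτ : ∀ n : N, ((τ n : N) : Q) = σ n.1 := fun _ => rfl
    have hmem : ∀ k : Q, k ∈ (((τ • P : Sylow r N) : Subgroup N)).map N.subtype ↔ ∃ y ∈ S, k = σ y := by
      intro k
      constructor
      · rintro ⟨z, hz, rfl⟩
        obtain ⟨y, hy, rfl⟩ := hz
        exact ⟨y.1, ⟨y, hy, rfl⟩, rfl⟩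
      · rintro ⟨_, ⟨y, hy, rfl⟩, rfl⟩
        exact ⟨τ y, ⟨y, hy, rfl⟩, rfl⟩
    have hsurj : ∀ e ∈ E, ∃ f ∈ E, σ f = e := by
      intro e he
      let g : E → E := fun y => ⟨σ y.1, hEinv σ hσ hσx y.1 y.2⟩
      have hg : Function.Injective g := fun a b e => Subtype.ext (σ.injective (congrArg Subtype.val e))
      obtain ⟨y, hy⟩ := (Finite.injective_iff_surjective.1 hg) ⟨e, he⟩
      exact ⟨y.1, y.2, congrArg Subtype.val hy⟩
    have h2 := hPu (τ • P) (by
      intro e he k hk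
      rw [hmem] at hk ⊢
      obtain ⟨y, hy, rfl⟩ := hk
      obtain ⟨f, hf, rfl⟩ := hsurj e he
      exact ⟨f * y * f⁻¹, hPE f hf y hy, by rw [map_mul, map_mul, map_inv]⟩)
    intro k hk
    have h3 := (hmem (σ k)).2 ⟨k, hk, rfl⟩
    rw [h2] at h3
    exact h3
  rcases h.two x hx Λ (fun σ hσ => hσ.1) hst with h1 | h1
  · -- `N` normalises `S`
    have h2 : (P : Subgroup N).Normal := by
      refine ⟨fun k hk n => ?_⟩
      have h3 : MulAut.conj (n : Q) ∈ Λ := by
        rw [h1]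
        exact (h.conj _).2 (hS.le n.2)
      have h4 : MulAut.conj (n : Q) (k : Q) ∈ S := (h3.2 _).2 ⟨k, hk, rfl⟩
      obtain ⟨z, hz, e⟩ := h4
      have h5 : z = n * k * n⁻¹ := Subtype.ext e
      rw [← h5]
      exact hz
    rcases hs.eq_bot_or_eq_top_of_normal _ h2 with h3 | h3
    · exact P.ne_bot_of_dvd_card hrd h3
    · have h4 : IsPGroup r N := by
        have := P.isPGroup'
        intro n
        obtain ⟨k, hk⟩ := this ⟨n, by rw [h3]; exact mem_top _⟩
        exact ⟨k, congrArg Subtype.val hk⟩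
      have h5 : Group.IsNilpotent N := h4.isNilpotent
      have h6 : Nontrivial N := (Subgroup.nontrivial_iff_ne_bot N).2 hN0
      have h7 := hs.eq_bot_or_eq_top_of_normal (center N) inferInstance
      rcases h7 with h7 | h7
      · have h8 : Nontrivial (center N) := h4.center_nontrivial
        exact ((Subgroup.nontrivial_iff_ne_bot _).1 h8) h7
      · apply hnc
        intro a ha b hb
        have h8 : (⟨a, ha⟩ : N) ∈ center N := by rw [h7]; exact mem_top _
        have h9 := (Subgroup.mem_center_iff.1 h8) ⟨b, hb⟩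
        exact (congrArg Subtype.val h9).symm
  · -- `S` fixes the point
    apply hS0
    rw [Subgroup.eq_bot_iff_forall]
    intro k hk
    have hkA : k ∈ A := hS.le (hSN hk)
    have h2 : MulAut.conj k ∈ Λ := by
      refine hmemΛ _ ((h.conj k).2 hkA) ?_
      intro y hy
      exact S.mul_mem (S.mul_mem hk hy) (S.inv_mem hk)
    have h3 := (h.conj_stab hkA).1 (h1 _ h2)
    have h4 : k ∈ A ⊓ cj x A ⊓ N := ⟨⟨hkA, h3⟩, hSN hk⟩
    rw [h0, mem_bot] at h4
    exact h4

omit [Finite Q] in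
/-- `Out N` solvable: the subgroups of `A` that meet `N` trivially are solvable -/
theorem solv_of_DS (hS : Soc A N) {n : ℕ} (hd : Cfsg.Agent.H936.DS n N) (M : Subgroup Q) (hM : M ≤ A)
    (hMN : M ⊓ N = ⊥) : Group.IsSolvable M := by
  have hEN : ∀ e ∈ M, ∀ n ∈ N, e * n * e⁻¹ ∈ N := fun e he n hn => hS.nor e (hM he) n hn
  let f : M →* MulAut N :=
    { toFun := fun a =>
        { toFun := fun n => ⟨a.1 * n.1 * a.1⁻¹, hEN a.1 a.2 n.1 n.2⟩
          invFun := fun n => ⟨a.1⁻¹ * n.1 * a.1⁻¹⁻¹, hEN a.1⁻¹ (M.inv_mem a.2) n.1 n.2⟩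
          left_inv := fun n => Subtype.ext (by
            show a.1⁻¹ * (a.1 * n.1 * a.1⁻¹) * a.1⁻¹⁻¹ = n.1
            group)
          right_inv := fun n => Subtype.ext (by
            show a.1 * (a.1⁻¹ * n.1 * a.1⁻¹⁻¹) * a.1⁻¹ = n.1
            group)
          map_mul' := fun x y => Subtype.ext (by
            show a.1 * (x.1 * y.1) * a.1⁻¹ = (a.1 * x.1 * a.1⁻¹) * (a.1 * y.1 * a.1⁻¹)
            group) }
      map_one' := by
        ext n
        show (1 : Q) * n.1 * (1 : Q)⁻¹ = n.1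
        group
      map_mul' := fun a b => by
        ext n
        show (a.1 * b.1) * n.1 * (a.1 * b.1)⁻¹ = a.1 * (b.1 * n.1 * b.1⁻¹) * a.1⁻¹
        group }
  have hf : ∀ (a : M) (n : N), ((f a n : N) : Q) = a.1 * n.1 * a.1⁻¹ := fun _ _ => rfl
  refine (Group.isSolvable_def M).2 ⟨n, ?_⟩
  rw [Subgroup.eq_bot_iff_forall]
  intro a ha
  have h2 : f a ∈ derivedSeries (MulAut N) n := Cfsg.Agent.H936.map_derivedSeries_le f n ⟨a, ha, rfl⟩
  obtain ⟨t, ht⟩ := hd h2
  have h3 : (t : Q)⁻¹ * a = 1 := by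
    refine hS.cen _ (A.mul_mem (A.inv_mem (hS.le t.2)) (hM a.2)) ?_
    intro x hx
    have h4 := congrArg Subtype.val (DFunLike.congr_fun ht ⟨x, hx⟩)
    have h5 : (t : Q) * x * (t : Q)⁻¹ = a.1 * x * a.1⁻¹ := h4
    have h6 : x = (t : Q)⁻¹ * (a.1 * x * a.1⁻¹) * t := by
      rw [← h5]; group
    calc (t : Q)⁻¹ * a * x = (t : Q)⁻¹ * (a.1 * x * a.1⁻¹) * t * ((t : Q)⁻¹ * a) := by group
      _ = x * ((t : Q)⁻¹ * a) := by rw [← h6]
  rw [inv_mul_eq_one] at h3
  have h4 : (a : Q) ∈ M ⊓ N := ⟨a.2, by rw [← h3]; exact t.2⟩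
  rw [hMN, mem_bot] at h4
  exact Subtype.ext h4

/-- **the two-point stabilisers, counted in the socle** -/
theorem ncard_le_locK (h : EPT A Γ) (hS : Soc A N) (hs : IsSimpleGroup N)
    (hnc : ¬ ∀ a ∈ N, ∀ b ∈ N, a * b = b * a)
    (hsol : ∀ M : Subgroup Q, M ≤ A → M ⊓ N = ⊥ → Group.IsSolvable M) :
    {M : Subgroup Q | ∃ x, x ∉ A ∧ M = A ⊓ cj x A}.ncard ≤ (Cfsg.Agent.H273.EPU.LocK N).ncard := by
  have hinv := hS.inv h hs
  have hMN : ∀ x : Q, ∀ σ ∈ Γ, x⁻¹ * σ x ∈ A → ∀ k ∈ A ⊓ cj x A ⊓ N, σ k ∈ A ⊓ cj x A ⊓ N :=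
    fun x σ hσ hσx k hk => ⟨h.stab_M0 hσ hσx (mem_inf.1 hk).1, hinv σ hσ k (mem_inf.1 hk).2⟩
  refine Set.ncard_le_ncard_of_injOn (fun M => M.subgroupOf N) ?_ ?_ (Set.toFinite _)
  · rintro _ ⟨x, hx, rfl⟩
    refine ⟨?_, ?_⟩
    · intro h0
      apply inf_ne_bot h hS hs hnc hsol hx
      rw [Subgroup.subgroupOf_eq_bot, disjoint_iff] at h0
      exact h0
    · intro Y hY hY0 n hn
      exact Cfsg.Agent.H273.EPU.mem_of_char h hS hinv hx (fun y => Iff.rfl) Y hY hY0 hn
  · have key : ∀ x y, x ∉ A → y ∉ A → (A ⊓ cj x A).subgroupOf N = (A ⊓ cj y A).subgroupOf N →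
        A ⊓ cj x A ≤ A ⊓ cj y A := by
      intro x y hx hy he m hm
      have he' : A ⊓ cj x A ⊓ N = A ⊓ cj y A ⊓ N := by
        have h1 := congrArg (Subgroup.map N.subtype) he
        rwa [Subgroup.subgroupOf_map_subtype, Subgroup.subgroupOf_map_subtype] at h1
      refine Cfsg.Agent.H273.EPU.mem_of_norm h hy (K := A ⊓ cj y A ⊓ N) inf_le_left (hMN y)
        (inf_ne_bot h hS hs hnc hsol hy) (mem_inf.1 hm).1 ?_
      intro k hk
      rw [← he'] at hk ⊢
      exact ⟨(A ⊓ cj x A).mul_mem ((A ⊓ cj x A).mul_mem hm (mem_inf.1 hk).1) ((A ⊓ cj x A).inv_mem hm),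
        hS.nor m (mem_inf.1 hm).1 k (mem_inf.1 hk).2⟩
    rintro _ ⟨x, hx, rfl⟩ _ ⟨y, hy, rfl⟩ e
    exact le_antisymm (key x y hx hy e) (key y x hy hx e.symm)

/-- the version for `HasSoc A L`, `Out L` solvable -/
theorem ncard_le_locK_hasSoc (h : EPT A Γ) {L : Type*} [Group L] [Finite L] (hS : Cfsg.Agent.H419.EP.HasSoc A L)
    (hL : IsSimpleGroup L) (hnc : ¬ ∀ a b : L, a * b = b * a) {n : ℕ} (hd : Cfsg.Agent.H936.DS n L) :
    {M : Subgroup Q | ∃ x, x ∉ A ∧ M = A ⊓ cj x A}.ncard ≤ (Cfsg.Agent.H273.EPU.LocK L).ncard := by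
  obtain ⟨N, h1, h2, h3, ⟨e⟩⟩ := hS
  have hS' : Soc A N := ⟨h1, h2, h3⟩
  refine (ncard_le_locK h hS' e.isSimpleGroup ?_ (solv_of_DS hS' (hd.of_equiv e.symm))).trans
    (Cfsg.Agent.H273.EPU.ncard_locK_le e)
  intro hc
  apply hnc
  intro a b
  apply e.symm.injective
  rw [map_mul, map_mul]
  exact Subtype.ext (hc _ (e.symm a).2 _ (e.symm b).2)

end ept

end Cfsg.Agent.H957.EP
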