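import Cfsg.Agent.H419.EP.Iface
import Cfsg.Agent.H59.EP.Gal
import Mathlib

/-!
# S3499, own characteristic: elementary abelian subgroups of prime-to-characteristic order (helper957)
-/

set_option autoImplicit false

namespace Cfsg.Agent.H957.EP

open Module Polynomial

/-- commuting operators with scalar `s`-th powers, pairwise not proportional: at most `s ^ (dim - 1)` of them -/
theorem card_le_of_ratio {k V T : Type*} [Field k] [IsAlgClosed k] [AddCommGroup V] [Module k V]
    [FiniteDimensional k V] [Nontrivial V] [Finite T] (A : T → Module.End k V)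
    (hcomm : ∀ a b, Commute (A a) (A b)) {s : ℕ} (hs : (s : k) ≠ 0) (c : T → k) (hc : ∀ a, c a ≠ 0)
    (hpow : ∀ a, A a ^ s = algebraMap k (Module.End k V) (c a))
    (hinj : ∀ a b (t : k), A a = t • A b → a = b) :
    Nat.card T ≤ s ^ (finrank k V - 1) := by
  classical
  have hs0 : s ≠ 0 := fun e => hs (by rw [e]; exact Nat.cast_zero)
  have hss : ∀ a, (A a).IsSemisimple := by
    intro a
    have hsep : (X ^ s - C (c a) : k[X]).Separable := separable_X_pow_sub_C (c a) hs (hc a)
    refine Module.End.isSemisimple_of_squarefree_aeval_eq_zero hsep.squarefree ?_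
    rw [map_sub, aeval_C, map_pow, aeval_X, hpow a, sub_self]
  have hev : ∀ a (μ : k), (A a).maxGenEigenspace μ = (A a).eigenspace μ := fun a μ =>
    (Module.End.isFinitelySemisimple_iff_isSemisimple.2 (hss a)).maxGenEigenspace_eq_eigenspace μ
  set W : (T → k) → Submodule k V := fun χ => ⨅ a, (A a).maxGenEigenspace (χ a) with hW
  have hmem : ∀ χ v, v ∈ W χ → ∀ a, A a v = χ a • v := by
    intro χ v hv a
    have h1 := (Submodule.mem_iInf _).1 hv a
    rw [hev a] at h1
    exact Module.End.mem_eigenspace_iff.1 h1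
  have htop : (⨆ χ, W χ) = ⊤ :=
    Module.End.iSup_iInf_maxGenEigenspace_eq_top_of_iSup_maxGenEigenspace_eq_top_of_commute A
      (fun a b _ => hcomm a b) (fun a => Module.End.iSup_maxGenEigenspace_eq_top (A a))
  have hind : iSupIndep W :=
    Module.End.independent_iInf_maxGenEigenspace_of_forall_mapsTo A
      (fun a b μ => Module.End.mapsTo_maxGenEigenspace_of_comm (hcomm b a) μ)
  have hfin : Set.Finite {χ | W χ ≠ ⊥} := WellFoundedGT.finite_ne_bot_of_iSupIndep hind
  have hfin' : Finite {χ // W χ ≠ ⊥} := hfin.to_subtype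
  have _hft : Fintype {χ // W χ ≠ ⊥} := Fintype.ofFinite _
  have hcard : Fintype.card {χ // W χ ≠ ⊥} ≤ finrank k V := hind.subtype_ne_bot_le_finrank
  obtain ⟨χ0, hχ0⟩ : ∃ χ, W χ ≠ ⊥ := by
    by_contra hcon
    push Not at hcon
    rw [iSup_congr hcon, iSup_bot] at htop
    exact bot_ne_top htop
  have hval : ∀ χ, W χ ≠ ⊥ → ∀ a, χ a ^ s = c a := by
    intro χ hχ a
    obtain ⟨v, hv, hv0⟩ := Submodule.exists_mem_ne_zero_of_ne_bot hχ
    have h1 : ∀ n : ℕ, (A a ^ n) v = χ a ^ n • v := by
      intro n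
      induction n with
      | zero => simp
      | succ n ih => rw [pow_succ', Module.End.mul_apply, ih, map_smul, hmem χ v hv a, smul_smul, pow_succ]
    have h2 := h1 s
    rw [hpow a, Module.algebraMap_end_apply] at h2
    exact (smul_left_injective k hv0 h2).symm
  have hχ0' : ∀ a, χ0 a ≠ 0 := fun a e => hc a (by rw [← hval χ0 hχ0 a, e, zero_pow hs0])
  let Φ : T → ({χ : {χ // W χ ≠ ⊥} // χ ≠ ⟨χ0, hχ0⟩} → {y : k // y ∈ (nthRoots s (1 : k)).toFinset}) :=
    fun a χ => ⟨χ.1.1 a / χ0 a, by
      rw [Multiset.mem_toFinset, mem_nthRoots (Nat.pos_of_ne_zero hs0), div_pow, hval _ χ.1.2, hval _ hχ0,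
        div_self (hc a)]⟩
  have hΦ : Function.Injective Φ := by
    intro a b hab
    refine hinj a b (χ0 a / χ0 b) ?_
    have h1 : ∀ χ, W χ ≠ ⊥ → χ a = χ0 a / χ0 b * χ b := by
      intro χ hχ
      by_cases e : (⟨χ, hχ⟩ : {χ // W χ ≠ ⊥}) = ⟨χ0, hχ0⟩
      · have : χ = χ0 := congrArg Subtype.val e
        rw [this, div_mul_cancel₀ _ (hχ0' b)]
      · have h2 := congrArg Subtype.val (congrFun hab ⟨⟨χ, hχ⟩, e⟩)
        have h3 : χ a / χ0 a = χ b / χ0 b := h2
        rw [div_eq_div_iff (hχ0' a) (hχ0' b)] at h3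
        field_simp [hχ0' a, hχ0' b]
        linear_combination h3
    have h2 : ∀ χ, W χ ≤ LinearMap.eqLocus (A a) ((χ0 a / χ0 b) • A b) := by
      intro χ v hv
      rw [LinearMap.mem_eqLocus, LinearMap.smul_apply, hmem χ v hv a, hmem χ v hv b, smul_smul]
      by_cases hv0 : v = 0
      · rw [hv0, smul_zero, smul_zero]
      · rw [h1 χ (fun e => hv0 (by rw [e] at hv; exact (Submodule.mem_bot k).1 hv))]
    have h3 : (⊤ : Submodule k V) ≤ LinearMap.eqLocus (A a) ((χ0 a / χ0 b) • A b) := by
      rw [← htop]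
      exact iSup_le h2
    ext v
    exact h3 Submodule.mem_top
  have h4 := Nat.card_le_card_of_injective Φ hΦ
  refine h4.trans ?_
  rw [Nat.card_fun]
  have h5 : Nat.card {y : k // y ∈ (nthRoots s (1 : k)).toFinset} ≤ s := by
    rw [Nat.card_eq_fintype_card, Fintype.card_coe]
    exact (Multiset.toFinset_card_le _).trans (card_nthRoots s 1)
  have h6 : Nat.card {χ : {χ // W χ ≠ ⊥} // χ ≠ ⟨χ0, hχ0⟩} ≤ finrank k V - 1 := by
    rw [Nat.card_eq_fintype_card, Fintype.card_subtype_compl, Fintype.card_subtype_eq]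
    omega
  exact (Nat.pow_le_pow_left h5 _).trans (Nat.pow_le_pow_right (Nat.pos_of_ne_zero hs0) h6)

/-- two operators with `X Y = ζ Y X` in prime dimension have scalar centraliser -/
theorem scalar_of_comm {k V : Type*} [Field k] [IsAlgClosed k] [AddCommGroup V] [Module k V]
    [FiniteDimensional k V] {n : ℕ} (hn : n.Prime) (hV : finrank k V = n) {ζ : k} (h1 : ζ ≠ 1) (h2 : ζ ^ n = 1)
    {X Y C : Module.End k V} (hX : ∀ v, X v = 0 → v = 0) (hY : ∀ v, Y v = 0 → v = 0) (hXY : X * Y = ζ • (Y * X))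
    (hCX : C * X = X * C) (hCY : C * Y = Y * C) : ∃ μ : k, C = μ • (1 : Module.End k V) := by
  classical
  have hnt : Nontrivial V := Module.nontrivial_of_finrank_pos (R := k) (by rw [hV]; exact hn.pos)
  have hfact : Fact n.Prime := ⟨hn⟩
  obtain ⟨μ, hμ⟩ := Module.End.exists_eigenvalue C
  refine ⟨μ, ?_⟩
  have hne : C.eigenspace μ ≠ ⊥ := hμ
  have hXW : ∀ v ∈ C.eigenspace μ, X v ∈ C.eigenspace μ := by
    intro v hv
    rw [Module.End.mem_eigenspace_iff] at hv ⊢
    have := LinearMap.congr_fun hCX v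
    rw [Module.End.mul_apply, Module.End.mul_apply, hv, map_smul] at this
    exact this
  have hYW : ∀ v ∈ C.eigenspace μ, Y v ∈ C.eigenspace μ := by
    intro v hv
    rw [Module.End.mem_eigenspace_iff] at hv ⊢
    have := LinearMap.congr_fun hCY v
    rw [Module.End.mul_apply, Module.End.mul_apply, hv, map_smul] at this
    exact this
  have hntW : Nontrivial (C.eigenspace μ) := (Submodule.nontrivial_iff_ne_bot).2 hne
  obtain ⟨l, hl⟩ := Module.End.exists_eigenvalue (X.restrict hXW)
  obtain ⟨w, hw⟩ := hl.exists_hasEigenvector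
  have hw1 : X w.1 = l • w.1 := by
    have := congrArg Subtype.val hw.apply_eq_smul
    simpa using this
  have hw0 : w.1 ≠ 0 := fun e => hw.2 (Subtype.ext e)
  have hl0 : l ≠ 0 := by
    rintro rfl
    rw [zero_smul] at hw1
    exact hw0 (hX _ hw1)
  have hYn : ∀ i : ℕ, (Y ^ i) w.1 ≠ 0 := by
    intro i
    induction i with
    | zero => simpa using hw0
    | succ i ih =>
      rw [pow_succ', Module.End.mul_apply]
      exact fun e => ih (hY _ e)
  have hYi : ∀ i : ℕ, X ((Y ^ i) w.1) = (l * ζ ^ i) • (Y ^ i) w.1 := by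
    intro i
    induction i with
    | zero => simpa using hw1
    | succ i ih =>
      have h3 := LinearMap.congr_fun hXY ((Y ^ i) w.1)
      rw [Module.End.mul_apply, LinearMap.smul_apply, Module.End.mul_apply, ih, map_smul] at h3
      rw [pow_succ', Module.End.mul_apply, h3, smul_smul]
      congr 1
      ring
  have hYm : ∀ i : ℕ, (Y ^ i) w.1 ∈ C.eigenspace μ := by
    intro i
    induction i with
    | zero => simp
    | succ i ih =>
      rw [pow_succ', Module.End.mul_apply]
      exact hYW _ ih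
  have hord : orderOf ζ = n := orderOf_eq_prime h2 h1
  have hlin : LinearIndependent k (fun i : Fin n => (Y ^ (i : ℕ)) w.1) := by
    refine Module.End.eigenvectors_linearIndependent' X (fun i : Fin n => l * ζ ^ (i : ℕ)) ?_ _ ?_
    · intro i j hij
      have h3 : ζ ^ (i : ℕ) = ζ ^ (j : ℕ) := mul_left_cancel₀ hl0 hij
      exact Fin.ext (pow_injOn_Iio_orderOf (by rw [hord]; exact i.2) (by rw [hord]; exact j.2) h3)
    · intro i
      exact ⟨Module.End.mem_eigenspace_iff.2 (hYi i), hYn i⟩
  have hspan := hlin.span_eq_top_of_card_eq_finrank' (by rw [Fintype.card_fin, hV])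
  have hle : (⊤ : Submodule k V) ≤ C.eigenspace μ := by
    rw [← hspan, Submodule.span_le]
    rintro _ ⟨i, rfl⟩
    exact hYm i
  ext v
  have := Module.End.mem_eigenspace_iff.1 (hle (Submodule.mem_top (x := v)))
  rw [this, LinearMap.smul_apply, Module.End.one_apply]

section mat

variable {K : Type*} [Field K] {ι : Type*} [Fintype ι] [DecidableEq ι]

/-- matrices over `K` as operators over the algebraic closure -/
noncomputable def op : Matrix ι ι K →+* Module.End (AlgebraicClosure K) (ι → AlgebraicClosure K) :=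
  (Matrix.toLinAlgEquiv' (R := AlgebraicClosure K) (n := ι)).toRingEquiv.toRingHom.comp
    (algebraMap K (AlgebraicClosure K)).mapMatrix

theorem op_apply (M : Matrix ι ι K) : op M = Matrix.toLin' (M.map (algebraMap K (AlgebraicClosure K))) := rfl

theorem op_smul (c : K) (M : Matrix ι ι K) : op (c • M) = algebraMap K (AlgebraicClosure K) c • op M := by
  rw [op_apply, op_apply, ← map_smul]
  congr 1
  ext i j
  simp

theorem entry_of_op {M N : Matrix ι ι K} {t : AlgebraicClosure K} (h : op M = t • op N) (i j : ι) :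
    algebraMap K (AlgebraicClosure K) (M i j) = t * algebraMap K (AlgebraicClosure K) (N i j) := by
  rw [op_apply, op_apply, ← map_smul] at h
  have h1 := Matrix.toLin'.injective h
  have h2 := congrFun (congrFun h1 i) j
  simpa using h2

/-- proportional over the closure: proportional over the field -/
theorem prop_of_op {M N : Matrix ι ι K} {t : AlgebraicClosure K} (hN : N ≠ 0) (h : op M = t • op N) :
    ∃ c : K, M = c • N := by
  obtain ⟨i, j, hij⟩ : ∃ i j, N i j ≠ 0 := by
    by_contra hcon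
    push Not at hcon
    exact hN (by ext i j; exact hcon i j)
  have hinj := FaithfulSMul.algebraMap_injective K (AlgebraicClosure K)
  have ht : t = algebraMap K (AlgebraicClosure K) (M i j / N i j) := by
    have h1 := entry_of_op h i j
    have h2 : algebraMap K (AlgebraicClosure K) (N i j) ≠ 0 := fun e => hij (hinj (by rw [e, map_zero]))
    rw [map_div₀, eq_div_iff h2, h1]
  refine ⟨M i j / N i j, ?_⟩
  ext a b
  have h1 := entry_of_op h a b
  rw [ht, ← map_mul] at h1
  exact hinj h1

theorem op_inj {M : Matrix ι ι K} (hM : IsUnit M) (v : ι → AlgebraicClosure K) (hv : op M v = 0) : v = 0 := by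
  obtain ⟨u, rfl⟩ := hM
  have h1 : op ((u⁻¹ : (Matrix ι ι K)ˣ) : Matrix ι ι K) * op (u : Matrix ι ι K) = 1 := by
    rw [← map_mul, Units.inv_mul, map_one]
  have h2 := LinearMap.congr_fun h1 v
  rw [Module.End.mul_apply, hv, map_zero, Module.End.one_apply] at h2
  exact h2.symm

/-- the commuting case for matrices -/
theorem card_le_comm [Nonempty ι] {T : Type*} [Finite T] (x : T → Matrix ι ι K) (hu : ∀ a, IsUnit (x a))
    (hcomm : ∀ a b, x a * x b = x b * x a) {s : ℕ} (hs : (s : K) ≠ 0) (hpow : ∀ a, ∃ c : K, x a ^ s = c • 1)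
    (hinj : ∀ a b (c : K), x a = c • x b → a = b) : Nat.card T ≤ s ^ (Fintype.card ι - 1) := by
  choose c hc using hpow
  have hinj' := FaithfulSMul.algebraMap_injective K (AlgebraicClosure K)
  have hne : ∀ a, x a ≠ 0 := by
    intro a e
    have := hu a
    rw [e] at this
    exact not_isUnit_zero this
  have h1 := card_le_of_ratio (k := AlgebraicClosure K) (V := ι → AlgebraicClosure K) (T := T) (fun a => op (x a))
    (fun a b => by
      show op (x a) * op (x b) = op (x b) * op (x a)
      rw [← map_mul, hcomm a b, map_mul])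
    (s := s) (fun e => hs (hinj' (by rw [map_natCast, e, map_zero])))
    (fun a => algebraMap K (AlgebraicClosure K) (c a))
    (fun a e => by
      have h2 : c a = 0 := hinj' (by rw [e, map_zero])
      have h3 := (hu a).pow s
      rw [hc a, h2, zero_smul] at h3
      exact not_isUnit_zero h3)
    (fun a => by
      show op (x a) ^ s = _
      rw [← map_pow, hc a, op_smul, map_one]
      rfl)
    (fun a b t ht => by
      obtain ⟨d, hd⟩ := prop_of_op (hne b) ht
      exact hinj a b d hd)
  rwa [Module.finrank_fintype_fun_eq_card] at h1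

/-- the noncommuting case for matrices in prime degree -/
theorem card_le_noncomm {T : Type*} [Finite T] (x : T → Matrix ι ι K) (hu : ∀ a, IsUnit (x a))
    (hprime : (Fintype.card ι).Prime)
    (hcomm : ∀ a b, ∃ c : K, x a * x b = c • (x b * x a)) {a0 b0 : T} (h0 : x a0 * x b0 ≠ x b0 * x a0)
    (hinj : ∀ a b (c : K), x a = c • x b → a = b) : Nat.card T ≤ Fintype.card ι ^ 2 := by
  classical
  set n := Fintype.card ι with hn
  have hne : Nonempty ι := Fintype.card_pos_iff.1 hprime.pos
  have hinj' := FaithfulSMul.algebraMap_injective K (AlgebraicClosure K)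
  have hroot : ∀ a b (c : K), x a * x b = c • (x b * x a) → c ^ n = 1 := by
    intro a b c h
    have h1 := congrArg Matrix.det h
    rw [Matrix.det_smul, Matrix.det_mul, Matrix.det_mul, mul_comm (x b).det] at h1
    have h2 : (x a).det * (x b).det ≠ 0 :=
      mul_ne_zero ((Matrix.isUnit_iff_isUnit_det _).1 (hu a)).ne_zero ((Matrix.isUnit_iff_isUnit_det _).1 (hu b)).ne_zero
    exact (mul_right_cancel₀ h2 (by rw [one_mul]; exact h1)).symm
  choose f hf using hcomm
  have hζ1 : f a0 b0 ≠ 1 := by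
    intro e
    have := hf a0 b0
    rw [e, one_smul] at this
    exact h0 this
  have hcent : ∀ C : Matrix ι ι K, C * x a0 = x a0 * C → C * x b0 = x b0 * C → ∃ c : K, C = c • 1 := by
    intro C hCa hCb
    obtain ⟨μ, hμ⟩ := scalar_of_comm (k := AlgebraicClosure K) (V := ι → AlgebraicClosure K) hprime
      (by rw [Module.finrank_fintype_fun_eq_card]) (ζ := algebraMap K _ (f a0 b0))
      (fun e => hζ1 (hinj' (by rw [e, map_one])))
      (by rw [← map_pow, hroot a0 b0 _ (hf a0 b0), map_one])
      (X := op (x a0)) (Y := op (x b0)) (C := op C) (fun v hv => op_inj (hu a0) v hv) (fun v hv => op_inj (hu b0) v hv)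
      (by rw [← map_mul, hf a0 b0, op_smul, map_mul])
      (by rw [← map_mul, hCa, map_mul]) (by rw [← map_mul, hCb, map_mul])
    rw [← map_one (op (K := K) (ι := ι))] at hμ
    exact prop_of_op one_ne_zero hμ
  let R := {y : K // y ∈ (nthRoots n (1 : K)).toFinset}
  let Φ : T → R × R := fun g =>
    (⟨f g a0, by rw [Multiset.mem_toFinset, mem_nthRoots hprime.pos]; exact hroot _ _ _ (hf g a0)⟩,
     ⟨f g b0, by rw [Multiset.mem_toFinset, mem_nthRoots hprime.pos]; exact hroot _ _ _ (hf g b0)⟩)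
  have hΦ : Function.Injective Φ := by
    intro g h hgh
    have e1 : f g a0 = f h a0 := congrArg (fun p => (p.1 : K)) hgh
    have e2 : f g b0 = f h b0 := congrArg (fun p => (p.2 : K)) hgh
    obtain ⟨u, hu'⟩ := hu h
    have key : ∀ y : Matrix ι ι K, (∃ c : K, c ≠ 0 ∧ x g * y = c • (y * x g) ∧ x h * y = c • (y * x h)) →
        ((u⁻¹ : (Matrix ι ι K)ˣ) : Matrix ι ι K) * x g * y = y * (((u⁻¹ : (Matrix ι ι K)ˣ) : Matrix ι ι K) * x g) := by
      rintro y ⟨c, hc, h1, h2⟩
      rw [← hu'] at h2
      have h3 : ((u⁻¹ : (Matrix ι ι K)ˣ) : Matrix ι ι K) * y = c⁻¹ • (y * ((u⁻¹ : (Matrix ι ι K)ˣ) : Matrix ι ι K)) := by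
        have h4 : ((u⁻¹ : (Matrix ι ι K)ˣ) : Matrix ι ι K) * ((u : Matrix ι ι K) * y) *
            ((u⁻¹ : (Matrix ι ι K)ˣ) : Matrix ι ι K) =
            ((u⁻¹ : (Matrix ι ι K)ˣ) : Matrix ι ι K) * (c • (y * (u : Matrix ι ι K))) *
            ((u⁻¹ : (Matrix ι ι K)ˣ) : Matrix ι ι K) := by rw [h2]
        rw [← mul_assoc, Units.inv_mul, one_mul, mul_smul_comm, smul_mul_assoc, ← mul_assoc, mul_assoc _ (u : Matrix ι ι K),
          Units.mul_inv, mul_one] at h4
        rw [h4, smul_smul, inv_mul_cancel₀ hc, one_smul]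
      rw [mul_assoc, h1, mul_smul_comm, ← mul_assoc, h3, smul_mul_assoc, smul_smul, mul_inv_cancel₀ hc, one_smul,
        mul_assoc]
    have hn0 : ∀ a b, f a b ≠ 0 := by
      intro a b e
      have := hroot a b _ (hf a b)
      rw [e, zero_pow hprime.ne_zero] at this
      exact zero_ne_one this
    obtain ⟨c, hc⟩ := hcent (((u⁻¹ : (Matrix ι ι K)ˣ) : Matrix ι ι K) * x g)
      (key _ ⟨f g a0, hn0 _ _, hf g a0, by rw [e1]; exact hf h a0⟩)
      (key _ ⟨f g b0, hn0 _ _, hf g b0, by rw [e2]; exact hf h b0⟩)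
    refine hinj g h c ?_
    have h5 : x g = (u : Matrix ι ι K) * (((u⁻¹ : (Matrix ι ι K)ˣ) : Matrix ι ι K) * x g) := by
      rw [← mul_assoc, Units.mul_inv, one_mul]
    rw [h5, hc, mul_smul_comm, mul_one, hu']
  have h4 := Nat.card_le_card_of_injective Φ hΦ
  refine h4.trans ?_
  rw [Nat.card_prod, sq]
  have h5 : Nat.card R ≤ n := by
    rw [Nat.card_eq_fintype_card, Fintype.card_coe]
    exact (Multiset.toFinset_card_le _).trans (card_nthRoots n 1)
  exact Nat.mul_le_mul h5 h5

end mat

/-- a group of order at most `s ^ 2` and exponent `s` is generated by two elements -/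
theorem two_gen_of_card {B : Type*} [Group B] [Finite B] {s : ℕ} (hs : s.Prime) {E : Subgroup B}
    (hexp : ∀ a ∈ E, a ^ s = 1) (hE : Nat.card E ≤ s ^ 2) :
    ∃ a ∈ E, ∃ b ∈ E, E = Subgroup.closure {a, b} := by
  classical
  have hfact : Fact s.Prime := ⟨hs⟩
  by_cases h1 : E = ⊥
  · refine ⟨1, one_mem _, 1, one_mem _, ?_⟩
    rw [h1]
    symm
    rw [Subgroup.closure_eq_bot_iff]
    simp
  obtain ⟨a, ha, ha1⟩ : ∃ a ∈ E, a ≠ 1 := by
    by_contra hcon
    push Not at hcon
    exact h1 ((Subgroup.eq_bot_iff_forall _).2 hcon)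
  have hoa : orderOf a = s := orderOf_eq_prime (hexp a ha) ha1
  by_cases h2 : E ≤ Subgroup.zpowers a
  · refine ⟨a, ha, a, ha, le_antisymm ?_ ?_⟩
    · rw [Set.pair_eq_singleton, ← Subgroup.zpowers_eq_closure]
      exact h2
    · rw [Subgroup.closure_le]
      rintro x (rfl | rfl)
      · exact ha
      · exact ha
  obtain ⟨b, hb, hba⟩ := Set.not_subset.1 h2
  refine ⟨a, ha, b, hb, ?_⟩
  have hle : Subgroup.closure {a, b} ≤ E := by
    rw [Subgroup.closure_le]
    rintro x (rfl | rfl)
    · exact ha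
    · exact hb
  symm
  refine Subgroup.eq_of_le_of_card_ge hle (hE.trans ?_)
  have hp : IsPGroup s (Subgroup.closure {a, b}) := by
    intro x
    exact ⟨1, Subtype.ext (by rw [pow_one]; exact hexp _ (hle x.2))⟩
  obtain ⟨k, hk⟩ := IsPGroup.iff_card.1 hp
  rw [hk]
  refine Nat.pow_le_pow_right hs.pos ?_
  by_contra hcon
  have hza : Subgroup.zpowers a ≤ Subgroup.closure {a, b} := by
    rw [Subgroup.zpowers_le]
    exact Subgroup.subset_closure (Set.mem_insert _ _)
  have h3 : Nat.card (Subgroup.closure {a, b}) ≤ Nat.card (Subgroup.zpowers a) := by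
    rw [hk, Nat.card_zpowers, hoa]
    calc s ^ k ≤ s ^ 1 := Nat.pow_le_pow_right hs.pos (by omega)
      _ = s := pow_one s
  have h4 := Subgroup.eq_of_le_of_card_ge hza h3
  apply hba
  rw [h4]
  exact Subgroup.subset_closure (Set.mem_insert_of_mem _ rfl)

section model

open Cfsg.Agent.H419.EP

variable {L : Type*} [Group L] [Finite L] {ι : Type} [Fintype ι] [DecidableEq ι] {K : Type*} [Field K]
  {S : Subgroup (GL ι K)}

/-- **RANK**: an abelian subgroup `E` of `L = S/scalars`, `S ≤ GL(n, K)`, `n` prime, of exponent `s`, `s` a prime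
different from the characteristic, has order at most `s ^ (n - 1)`, or `n = s` and `|E| ≤ n ^ 2` -/
theorem card_elab (m : Model L S) (hprime : (Fintype.card ι).Prime) {s : ℕ} (hsp : s.Prime) (hs : (s : K) ≠ 0)
    {E : Subgroup L} (hcomm : ∀ a ∈ E, ∀ b ∈ E, a * b = b * a) (hexp : ∀ a ∈ E, a ^ s = 1) :
    Nat.card E ≤ s ^ (Fintype.card ι - 1) ∨ (Fintype.card ι = s ∧ Nat.card E ≤ s ^ 2) := by
  classical
  have hne : Nonempty ι := Fintype.card_pos_iff.1 hprime.pos
  choose l hl using m.surj
  let x : E → Matrix ι ι K := fun a => ((l a.1 : GL ι K) : Matrix ι ι K)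
  have hu : ∀ a, IsUnit (x a) := fun a => ⟨(l a.1 : GL ι K), rfl⟩
  have hsc : ∀ t u : S, m.π t = m.π u → ∃ c : K, ((t : GL ι K) : Matrix ι ι K) = c • ((u : GL ι K) : Matrix ι ι K) := by
    intro t u h
    obtain ⟨z, hz, e⟩ := (m.π_eq_iff t u).1 h
    obtain ⟨c, hc⟩ := (Cfsg.Geo.mem_scalars_iff z).1 hz
    refine ⟨c, ?_⟩
    rw [e, Units.val_mul, hc, mul_smul_comm, mul_one]
  have hc1 : ∀ a b : E, ∃ c : K, x a * x b = c • (x b * x a) := by
    intro a b
    obtain ⟨c, hc⟩ := hsc (l a.1 * l b.1) (l b.1 * l a.1)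
      (by rw [map_mul, map_mul, hl, hl]; exact hcomm _ a.2 _ b.2)
    refine ⟨c, ?_⟩
    simpa using hc
  have hp1 : ∀ a : E, ∃ c : K, x a ^ s = c • 1 := by
    intro a
    obtain ⟨c, hc⟩ := hsc (l a.1 ^ s) 1 (by rw [map_pow, hl, map_one]; exact hexp _ a.2)
    refine ⟨c, ?_⟩
    simpa using hc
  have hinj : ∀ (a b : E) (c : K), x a = c • x b → a = b := by
    intro a b c h
    have hc0 : c ≠ 0 := by
      rintro rfl
      have := hu a
      rw [h, zero_smul] at this
      exact not_isUnit_zero this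
    refine Subtype.ext ?_
    rw [← hl a.1, ← hl b.1]
    refine (m.π_eq_iff _ _).2 ⟨((l b.1 : GL ι K))⁻¹ * (l a.1 : GL ι K), ?_, by group⟩
    rw [Cfsg.Geo.mem_scalars_iff]
    refine ⟨Units.mk0 c hc0, ?_⟩
    have h1 : ((l a.1 : GL ι K) : Matrix ι ι K) = c • ((l b.1 : GL ι K) : Matrix ι ι K) := h
    rw [Units.val_mul, h1, mul_smul_comm, ← Units.val_mul, inv_mul_cancel, Units.val_one, Units.val_mk0]
  by_cases hab : ∀ a b, x a * x b = x b * x a
  · left
    exact card_le_comm x hu hab hs hp1 hinj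
  · right
    push Not at hab
    obtain ⟨a0, b0, h0⟩ := hab
    have h1 := card_le_noncomm x hu hprime hc1 h0 hinj
    have h2 : Fintype.card ι = s := by
      obtain ⟨c, hc⟩ := hc1 a0 b0
      have hc1' : c ≠ 1 := by
        rintro rfl
        rw [one_smul] at hc
        exact h0 hc
      have hroot : c ^ Fintype.card ι = 1 := by
        have h1 := congrArg Matrix.det hc
        rw [Matrix.det_smul, Matrix.det_mul, Matrix.det_mul, mul_comm (x b0).det] at h1
        have h2 : (x a0).det * (x b0).det ≠ 0 :=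
          mul_ne_zero ((Matrix.isUnit_iff_isUnit_det _).1 (hu a0)).ne_zero
            ((Matrix.isUnit_iff_isUnit_det _).1 (hu b0)).ne_zero
        exact (mul_right_cancel₀ h2 (by rw [one_mul]; exact h1)).symm
      have hroot2 : c ^ s = 1 := by
        have h3 : ∀ k : ℕ, x a0 ^ k * x b0 = c ^ k • (x b0 * x a0 ^ k) := by
          intro k
          induction k with
          | zero => simp
          | succ k ih =>
            rw [pow_succ', mul_assoc, ih, mul_smul_comm, ← mul_assoc, hc, smul_mul_assoc, smul_smul, mul_assoc,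
              ← pow_succ]
        obtain ⟨d, hd⟩ := hp1 a0
        have h4 := h3 s
        rw [hd, smul_mul_assoc, one_mul, mul_smul_comm, mul_one, smul_smul] at h4
        have hd0 : d ≠ 0 := by
          rintro rfl
          have := (hu a0).pow s
          rw [hd, zero_smul] at this
          exact not_isUnit_zero this
        have hb0 : x b0 ≠ 0 := (hu b0).ne_zero
        have h5 : d = c ^ s * d := smul_left_injective K hb0 h4
        exact (mul_right_cancel₀ hd0 (by rw [one_mul]; exact h5)).symm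
      have h6 : orderOf c = Fintype.card ι := by
        have hf : Fact (Fintype.card ι).Prime := ⟨hprime⟩
        exact orderOf_eq_prime hroot hc1'
      have h7 : orderOf c = s := by
        have hf : Fact s.Prime := ⟨hsp⟩
        exact orderOf_eq_prime hroot2 hc1'
      rw [← h6, h7]
    exact ⟨h2, by rw [← h2]; exact h1⟩

/-- **RANK2**: degree 3 -/
theorem card_elab_three (m : Model L S) (h3 : Fintype.card ι = 3) {s : ℕ} (hsp : s.Prime) (hs : (s : K) ≠ 0)
    {E : Subgroup L} (hE : Cfsg.Agent.H59.EP.ElAb s E) : Nat.card E ≤ s ^ 2 := by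
  rcases card_elab m (by rw [h3]; norm_num) hsp hs hE.comm hE.exp with h | h
  · rw [h3] at h
    exact h
  · exact h.2

/-- **RANK2**: degree 3, generated by two elements -/
theorem two_gen_three (m : Model L S) (h3 : Fintype.card ι = 3) {s : ℕ} (hsp : s.Prime) (hs : (s : K) ≠ 0)
    {E : Subgroup L} (hE : Cfsg.Agent.H59.EP.ElAb s E) : ∃ a ∈ E, ∃ b ∈ E, E = Subgroup.closure {a, b} :=
  two_gen_of_card hsp hE.exp (card_elab_three m h3 hsp hs hE)

/-- degree 2: order at most 4, and at most `s` for odd `s` -/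
theorem card_elab_two (m : Model L S) (h2 : Fintype.card ι = 2) {s : ℕ} (hsp : s.Prime) (hs : (s : K) ≠ 0)
    {E : Subgroup L} (hE : Cfsg.Agent.H59.EP.ElAb s E) : Nat.card E ≤ s ∨ (s = 2 ∧ Nat.card E ≤ 4) := by
  rcases card_elab m (by rw [h2]; norm_num) hsp hs hE.comm hE.exp with h | h
  · rw [h2] at h
    left
    simpa using h
  · right
    rw [h2] at h
    exact ⟨h.1.symm, by have := h.2; rw [← h.1] at this; simpa using this⟩

end model

end Cfsg.Agent.H957.EP
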